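import Mathlib
import Cfsg.Agent.BLK.TameSolv

/-! The `p`-regular rank of the characters over an invariant character of a normal
`p'`-subgroup is at most the number of `p`-regular classes of the quotient. -/

set_option autoImplicit false

open Cfsg Subgroup CL.Char

namespace CL.Blk.RkOv

universe u

theorem prank_equiv {A B : Type*} [Group A] [Group B] {p r : ℕ} (e : A ≃* B)
    (h : PRankLE p r B) : PRankLE p r A := by
  intro X hX hp
  have h1 := h (X.map e.toMonoidHom) ⟨⟨fun a b => by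
    obtain ⟨_, x, hx, rfl⟩ := a
    obtain ⟨_, y, hy, rfl⟩ := b
    have := congrArg Subtype.val (hX.is_comm.comm ⟨x, hx⟩ ⟨y, hy⟩)
    have h2 : e x * e y = e y * e x := by simpa using congrArg e this
    exact Subtype.ext h2⟩⟩ (by
    rintro _ ⟨x, hx, rfl⟩
    rw [← map_pow, hp x hx, map_one])
  rwa [card_map_of_injective e.injective] at h1

theorem sec_of_inj {K S : Type*} [Group K] [Group S] {p r : ℕ} (f : K →* S)
    (hf : Function.Injective f) (h : SectionalPRankLE p r S) : SectionalPRankLE p r K := by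
  intro H N hN
  let e : H ≃* H.map f := H.equivMapOfInjective f hf
  have hN' : (N.map (e : H →* H.map f)).Normal := hN.map _ e.surjective
  exact prank_equiv (QuotientGroup.congr N _ e rfl) (h (H.map f) (N.map (e : H →* H.map f)))

theorem exists_coset {G : Type u} [Group G] [Finite G] (N : Subgroup G) [hN : N.Normal]
    [Fintype N] {θ : N → ℂ} (hθ : IsIrrCharacter N θ) (hi : inertia N θ = ⊤) (g : G) :
    ∃ (t : N → ℂ) (m : N), t m ≠ 0 ∧ ∀ χ ∈ overSet N θ, ∃ c : ℂ, ∀ n : N,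
      (χ : G → ℂ) (n * g) = c * t n := by
  obtain ⟨Γ, _, _, π, θ', μ, hπ, -, h1, h2, -, -, hsec, -, hker, hdec, -⟩ :=
    exists_triple_cover N θ hθ (inertia_eq_top_iff.1 hi)
  obtain ⟨γ, rfl⟩ := hπ g
  choose s hs hs1 using hsec
  obtain ⟨x, hx, hx0⟩ := exists_apply_mul_ne_zero h1.isCharacter h2 γ
  refine ⟨fun n => θ' (s n * γ), ⟨π x, hx⟩, ?_, fun χ hχ => ?_⟩
  · have h3 := hker (⟨x, hx⟩ * (s ⟨π x, hx⟩)⁻¹) (by simp [hs]) (s ⟨π x, hx⟩ * γ)
    simp only [coe_mul, coe_inv, mul_assoc, inv_mul_cancel_left] at h3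
    show θ' _ ≠ 0
    rw [← h3]
    exact mul_ne_zero hx0 (Units.ne_zero _)
  · obtain ⟨β, hβ, hβ1, hβμ, hβχ⟩ := hdec χ χ.2 _
      (fun n => congrFun (clifford_of_invariant χ.2 hθ hi hχ) n)
    refine ⟨β γ, fun n => ?_⟩
    rw [← hs n, ← map_mul, hβχ, hβ.isCharacter.apply_mul_of_apply_eq (by
      rw [hβμ, hs1, hβ1]; simp)]

theorem dvd_orderOf_iff {G : Type*} [Group G] [Finite G] {p : ℕ} (hp : p.Prime) (N : Subgroup G)
    [N.Normal] (hN : ¬ p ∣ Nat.card N) (g : G) :
    p ∣ orderOf g ↔ p ∣ orderOf (g : G ⧸ N) := by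
  refine ⟨fun h => ?_, fun h => h.trans (orderOf_map_dvd (QuotientGroup.mk' N) g)⟩
  have h1 : g ^ orderOf (g : G ⧸ N) ∈ N := by
    rw [← QuotientGroup.eq_one_iff, QuotientGroup.mk_pow, pow_orderOf_eq_one]
  have h2 : g ^ (orderOf (g : G ⧸ N) * Nat.card N) = 1 := by
    rw [pow_mul]
    exact congrArg Subtype.val (pow_card_eq_one' (x := (⟨_, h1⟩ : N)))
  exact (hp.dvd_mul.1 (h.trans (orderOf_dvd_of_pow_eq_one h2))).resolve_right hN

theorem blockRank_le {G : Type u} [Group G] [Finite G] {p : ℕ} (hp : p.Prime) (N : Subgroup G)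
    [hN : N.Normal] [Fintype N] (hpN : ¬ p ∣ Nat.card N) {θ : N → ℂ} (hθ : IsIrrCharacter N θ)
    (hi : inertia N θ = ⊤) : blockRank p (overSet N θ) ≤
      Nat.card {C : ConjClasses (G ⧸ N) // ∃ g, ConjClasses.mk g = C ∧ ¬ p ∣ orderOf g} := by
  classical
  choose t m hm ht using exists_coset N hθ hi
  set ι := {C : ConjClasses (G ⧸ N) // ∃ g, ConjClasses.mk g = C ∧ ¬ p ∣ orderOf g}
  have hr : ∀ C : ι, ∃ g : G, ConjClasses.mk (g : G ⧸ N) = C.1 := fun C => by
    obtain ⟨g, hg, -⟩ := C.2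
    obtain ⟨g, rfl⟩ := QuotientGroup.mk_surjective g
    exact ⟨g, hg⟩
  choose r hr using hr
  have := Fintype.ofFinite ι
  set W := Submodule.span ℂ ((fun χ : IrrCharacter G => pRegularPart p (χ : G → ℂ)) '' overSet N θ)
  have hW : ∀ f ∈ W, IsClassFunction G f ∧ (∀ g, p ∣ orderOf g → f g = 0) ∧
      ∀ g, ∃ c : ℂ, ∀ n : N, f (n * g) = c * t g n := by
    intro f hf
    induction hf using Submodule.span_induction with
    | mem f hf =>
      obtain ⟨χ, hχ, rfl⟩ := hf
      refine ⟨isClassFunction_pRegularPart χ.2.isClassFunction, fun g hg => ?_, fun g => ?_⟩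
      · simp [pRegularPart, IsPRegular, hg]
      · have h1 : ∀ n : N, p ∣ orderOf ((n : G) * g) ↔ p ∣ orderOf g := fun n => by
          rw [dvd_orderOf_iff hp N hpN, dvd_orderOf_iff hp N hpN g, QuotientGroup.mk_mul,
            (QuotientGroup.eq_one_iff _).2 n.2, one_mul]
        by_cases hg : p ∣ orderOf g
        · exact ⟨0, fun n => by simp [pRegularPart, IsPRegular, h1, hg]⟩
        · obtain ⟨c, hc⟩ := ht g χ hχ
          exact ⟨c, fun n => by simp [pRegularPart, IsPRegular, h1, hg, hc]⟩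
    | zero => exact ⟨fun _ _ => rfl, fun _ _ => rfl, fun g => ⟨0, fun n => by simp⟩⟩
    | add f f' _ _ h h' =>
      refine ⟨fun a b => by simp only [Pi.add_apply, h.1 a b, h'.1 a b],
        fun g hg => by simp [h.2.1 g hg, h'.2.1 g hg], fun g => ?_⟩
      obtain ⟨c, hc⟩ := h.2.2 g
      obtain ⟨c', hc'⟩ := h'.2.2 g
      exact ⟨c + c', fun n => by rw [Pi.add_apply, hc, hc', add_mul]⟩
    | smul a f _ h =>
      refine ⟨fun x b => by simp only [Pi.smul_apply, h.1 x b],
        fun g hg => by simp [h.2.1 g hg], fun g => ?_⟩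
      obtain ⟨c, hc⟩ := h.2.2 g
      exact ⟨a * c, fun n => by rw [Pi.smul_apply, hc, smul_eq_mul, mul_assoc]⟩
  let L : W →ₗ[ℂ] (ι → ℂ) := (LinearMap.funLeft ℂ ℂ fun C => (m (r C) : G) * r C).comp W.subtype
  have hL : Function.Injective L := by
    rw [injective_iff_map_eq_zero]
    intro f hf
    obtain ⟨h1, h2, h3⟩ := hW f.1 f.2
    refine Subtype.ext (funext fun g => ?_)
    by_cases hg : p ∣ orderOf g
    · exact h2 g hg
    let C : ι := ⟨ConjClasses.mk (g : G ⧸ N), g, rfl, by rwa [← dvd_orderOf_iff hp N hpN]⟩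
    obtain ⟨c, hc⟩ := h3 (r C)
    have h4 : f.1 ((m (r C) : G) * r C) = 0 := congrFun hf C
    rw [hc] at h4
    have h5 : c = 0 := (mul_eq_zero.1 h4).resolve_right (hm _)
    obtain ⟨y, hy⟩ := isConj_iff.1 (ConjClasses.mk_eq_mk_iff_isConj.1 (hr C)).symm
    obtain ⟨y, rfl⟩ := QuotientGroup.mk_surjective y
    have h6 : y * g * y⁻¹ * (r C)⁻¹ ∈ N := by
      rw [← QuotientGroup.eq_one_iff, QuotientGroup.mk_mul, QuotientGroup.mk_mul,
        QuotientGroup.mk_mul, QuotientGroup.mk_inv, QuotientGroup.mk_inv, hy, mul_inv_cancel]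
    have h7 := hc ⟨_, h6⟩
    simp only [inv_mul_cancel_right, h5, zero_mul] at h7
    exact (h1 g y).symm.trans h7
  have h := LinearMap.finrank_le_finrank_of_injective hL
  rwa [Module.finrank_fintype_fun_eq_card, ← Nat.card_eq_fintype_card] at h

end CL.Blk.RkOv
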